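import Mathlib
import Cfsg.Agent.Lib.Helper93.CG11.Defs
import Cfsg.Agent.Lib.Helper80.NseM11.Cent
import Cfsg.Agent.Lib.Helper52.NseM11.Simple
import Cfsg.Agent.Lib.Helper52.A7.Tools

set_option autoImplicit false

/-!
# S3413, package (DVD)

In a group of order `7920` with an element `x` commuting with exactly `11` elements, a normal
subgroup of order divisible by `11` is everything (given that the normalizer of `⟨x⟩` has
order `55`).
-/

universe u

namespace Cfsg.Agent.Lib.Helper52.CG11

open Cfsg.Agent.Lib.Helper93.CG11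

theorem pkgDvd (hN : PkgNorm.{u}) : PkgDvd.{u} := by
  intro G _ _ x hG hx N hNn h11
  have : Fact (Nat.Prime 11) := ⟨by norm_num⟩
  have hC : Nat.card (Subgroup.centralizer ({x} : Set G)) = 11 := by
    rw [← hx]
    refine Nat.card_congr (Equiv.subtypeEquivRight (fun h => ?_))
    rw [Subgroup.mem_centralizer_iff]
    simp only [Set.mem_singleton_iff, forall_eq]
    exact eq_comm
  have hxC : x ∈ Subgroup.centralizer ({x} : Set G) := by
    rw [Subgroup.mem_centralizer_iff]
    simp
  have hox : orderOf x = 11 := by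
    have hdvd : orderOf x ∣ 11 := by
      have h1 := Subgroup.orderOf_dvd_natCard _ hxC
      rwa [hC] at h1
    rcases (Nat.dvd_prime (by norm_num : Nat.Prime 11)).mp hdvd with h | h
    · exfalso
      rw [orderOf_eq_one_iff] at h
      subst h
      have h1 : Nat.card {h : G // h * 1 = 1 * h} = Nat.card G :=
        Nat.card_congr (Equiv.subtypeUnivEquiv (fun h => by simp))
      omega
    · exact h
  have hS11 : ∀ P : Sylow 11 G, Nat.card (P : Subgroup G) = 11 := fun P =>
    NseM11.sylow_card_prime (by rw [hG]; norm_num) (by rw [hG]; norm_num) P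
  have hpx : IsPGroup 11 (Subgroup.zpowers x) :=
    IsPGroup.of_card (n := 1) (by rw [Nat.card_zpowers, hox, pow_one])
  obtain ⟨P, hP⟩ := hpx.exists_le_sylow
  have hPe : Subgroup.zpowers x = (P : Subgroup G) :=
    Subgroup.eq_of_le_of_card_ge hP (by rw [Nat.card_zpowers, hox, hS11 P])
  have hnorm : Nat.card (Subgroup.normalizer (Subgroup.zpowers x : Set G)) = 55 := hN x hG hx
  have hn11 : Nat.card (Sylow 11 G) = 144 := by
    have h1 : Nat.card (Sylow 11 G) =
        (Subgroup.normalizer ((P : Subgroup G) : Set G)).index :=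
      Sylow.card_eq_index_normalizer P
    have h2 := Subgroup.card_mul_index (Subgroup.normalizer ((P : Subgroup G) : Set G))
    rw [← hPe] at h1 h2
    rw [hnorm, hG] at h2
    omega
  have hc11 : Nat.card {y : G // orderOf y = 11} = 1440 := by
    rw [NseM11.card_orderOf_prime_aux hS11, hn11]
  have hall : ∀ y : G, orderOf y = 11 → y ∈ N :=
    NseM11.mem_normal_of_orderOf hS11 N hNn h11
  have hNdvd : Nat.card N ∣ 7920 := hG ▸ Subgroup.card_subgroup_dvd_card N
  have hcN : Nat.card {y : N // orderOf y = 11} = 1440 := by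
    rw [NseM11.card_sub_orderOf N 11 hall, hc11]
  have hSN : ∀ Q : Sylow 11 N, Nat.card (Q : Subgroup N) = 11 := fun Q =>
    NseM11.sylow_card_prime h11 (fun h => by
      have h1 := h.trans hNdvd
      norm_num at h1) Q
  have hcN' := NseM11.card_orderOf_prime_aux hSN
  rw [hcN] at hcN'
  have hnN : Nat.card (Sylow 11 N) = 144 := by omega
  have h144 : 144 ∣ Nat.card N := by
    obtain ⟨Q⟩ : Nonempty (Sylow 11 N) := inferInstance
    have h1 := Sylow.card_dvd_index Q
    rw [hnN] at h1
    exact h1.trans (Subgroup.index_dvd_card _)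
  have h1584 : 1584 ∣ Nat.card N := by
    have hcop : Nat.Coprime 144 11 := by norm_num
    exact hcop.mul_dvd_of_dvd_of_dvd h144 h11
  obtain ⟨k, hk⟩ := h1584
  have hk5 : k ∣ 5 := by
    rw [hk] at hNdvd
    exact Nat.dvd_of_mul_dvd_mul_left (by norm_num : 0 < 1584) hNdvd
  rcases (Nat.dvd_prime Nat.prime_five).mp hk5 with rfl | rfl
  · exfalso
    have hxN : x ∈ N := hall x hox
    have hPN : Subgroup.zpowers x ≤ N := by
      rw [Subgroup.zpowers_le]
      exact hxN
    have hcardP : Nat.card (Subgroup.zpowers x) = 11 ^ 1 := by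
      rw [Nat.card_zpowers, hox, pow_one]
    have hNC : N ⊓ Subgroup.normalizer (Subgroup.zpowers x : Set G) ≤
        Subgroup.centralizer (Subgroup.zpowers x : Set G) := by
      have hle : Subgroup.zpowers x ≤ N ⊓ Subgroup.normalizer (Subgroup.zpowers x : Set G) :=
        le_inf hPN Subgroup.le_normalizer
      have hd1 : Nat.card (N ⊓ Subgroup.normalizer (Subgroup.zpowers x : Set G) : Subgroup G) ∣
          1584 := by
        have h1 := Subgroup.card_dvd_of_le
          (inf_le_left : N ⊓ Subgroup.normalizer (Subgroup.zpowers x : Set G) ≤ N)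
        rw [hk] at h1
        exact h1
      have hd2 : Nat.card (N ⊓ Subgroup.normalizer (Subgroup.zpowers x : Set G) : Subgroup G) ∣
          55 := by
        have h1 := Subgroup.card_dvd_of_le
          (inf_le_right : N ⊓ Subgroup.normalizer (Subgroup.zpowers x : Set G) ≤
            Subgroup.normalizer (Subgroup.zpowers x : Set G))
        rw [hnorm] at h1
        exact h1
      have hd3 : Nat.card (N ⊓ Subgroup.normalizer (Subgroup.zpowers x : Set G) : Subgroup G) ∣
          11 := by
        have h1 := Nat.dvd_gcd hd1 hd2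
        have h2 : Nat.gcd 1584 55 = 11 := by norm_num
        rw [h2] at h1
        exact h1
      have heq : Subgroup.zpowers x = N ⊓ Subgroup.normalizer (Subgroup.zpowers x : Set G) :=
        Subgroup.eq_of_le_of_card_ge hle (by
          rw [Nat.card_zpowers, hox]
          exact Nat.le_of_dvd (by norm_num) hd3)
      rw [← heq]
      intro a ha
      rw [Subgroup.mem_centralizer_iff]
      intro b hb
      obtain ⟨i, rfl⟩ := Subgroup.mem_zpowers_iff.mp ha
      obtain ⟨j, rfl⟩ := Subgroup.mem_zpowers_iff.mp hb
      exact ((Commute.refl x).zpow_zpow j i).eq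
    obtain ⟨K, hKN, hNK, hKcard, -⟩ := A7.burnside_sub N (Subgroup.zpowers x) hPN 1 144 hcardP
      (by rw [hk]; norm_num) (by norm_num) hNC
    have hKnorm : (K.subgroupOf N).Normal :=
      (Subgroup.normal_subgroupOf_iff_le_normalizer hKN).mpr hNK
    have hKc : Nat.card (K.subgroupOf N) ∣ 144 := by
      have h1 : Nat.card (K.subgroupOf N) = Nat.card K :=
        Nat.card_congr (Subgroup.subgroupOfEquivOfLe hKN).toEquiv
      rw [h1, hKcard]
    have hox' : orderOf (⟨x, hxN⟩ : N) = 11 := by
      rw [← Subgroup.orderOf_coe]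
      exact hox
    have hcent := Cfsg.Agent.Lib.Helper80.NseM11.pkgCent (K.subgroupOf N) hKnorm hKc
      ⟨x, hxN⟩ hox'
    have hle : Nat.card K ≤ Nat.card {h : G // h * x = x * h} := by
      refine Nat.card_le_card_of_injective (fun k : K => ⟨(k : G), ?_⟩) ?_
      · have h1 := hcent ⟨(k : G), hKN k.2⟩ (Subgroup.mem_subgroupOf.mpr k.2)
        have h2 := congrArg Subtype.val h1
        exact h2.symm
      · intro a b hab
        have h1 : (a : G) = (b : G) := congrArg (fun t : {h : G // h * x = x * h} => (t : G)) hab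
        exact Subtype.ext h1
    rw [hKcard, hx] at hle
    omega
  · exact Subgroup.eq_top_of_card_eq N (by rw [hk, hG])

end Cfsg.Agent.Lib.Helper52.CG11
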